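import Cfsg.Agent.Lib.Helper39.Stbg.DC

/-!
# Double cosets of Young subgroups
-/

set_option autoImplicit false
set_option linter.unusedSectionVars false

namespace Cfsg.Agent.Lib.Helper39.Stbg

open Cfsg

/-- two maps with fibres of the same size differ by a bijection -/
theorem exists_equiv_of_card_fiber {α β γ : Type*} [Fintype α] [Fintype β] [DecidableEq γ]
    (f : α → γ) (g : β → γ)
    (h : ∀ c, Fintype.card {x // f x = c} = Fintype.card {y // g y = c}) :
    ∃ e : α ≃ β, ∀ x, g (e x) = f x := by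
  let e : α ≃ β := (Equiv.sigmaFiberEquiv f).symm.trans
    ((Equiv.sigmaCongrRight fun c => Fintype.equivOfCardEq (h c)).trans (Equiv.sigmaFiberEquiv g))
  refine ⟨e, ?_⟩
  intro x
  exact ((Fintype.equivOfCardEq (h (f x))) ⟨x, rfl⟩).2

variable {ι : Type*} [Fintype ι] [DecidableEq ι]

/-- permutations preserving a labelling -/
def labSub (a : ι → ℕ) : Subgroup (Equiv.Perm ι) where
  carrier := {σ | ∀ i, a (σ i) = a i}
  mul_mem' := fun {s} {t} hs ht i => by
    change a (s (t i)) = a i
    rw [hs, ht]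
  one_mem' := fun _ => rfl
  inv_mem' := fun {s} hs i => by
    have h := hs (s⁻¹ i)
    have e : s (s⁻¹ i) = i := by simp
    rw [e] at h
    exact h.symm

theorem youngSubgroup_eq {n : ℕ} (μ : Fin n → ℕ) : youngSubgroup μ = labSub (compLabel μ) := rfl

theorem mem_labSub {a : ι → ℕ} {σ : Equiv.Perm ι} : σ ∈ labSub a ↔ ∀ i, a (σ i) = a i := Iff.rfl

/-- the type of a permutation with respect to two labellings -/
def permType (a b : ι → ℕ) (σ : Equiv.Perm ι) : Multiset (ℕ × ℕ) :=
  Finset.univ.val.map fun x => (a (σ x), b x)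

theorem permType_mul (a b : ι → ℕ) {h k : Equiv.Perm ι} (hh : h ∈ labSub a) (hk : k ∈ labSub b)
    (σ : Equiv.Perm ι) : permType a b (h * σ * k) = permType a b σ := by
  unfold permType
  have h1 : (fun x => (a ((h * σ * k) x), b x)) = (fun x => (a (σ x), b x)) ∘ k := by
    funext x
    simp only [Function.comp, Equiv.Perm.mul_apply]
    rw [hh, hk]
  rw [h1, ← Multiset.map_map]
  congr 1
  exact Multiset.map_univ_val_equiv k

theorem count_permType (a b : ι → ℕ) (σ : Equiv.Perm ι) (c : ℕ × ℕ) :
    (permType a b σ).count c = Fintype.card {x // (a (σ x), b x) = c} := by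
  unfold permType
  rw [Multiset.count_map, Fintype.card_subtype]
  congr 1
  simp only [eq_comm]
  rfl

theorem exists_of_permType_eq (a b : ι → ℕ) {σ τ : Equiv.Perm ι}
    (h : permType a b σ = permType a b τ) :
    ∃ u ∈ labSub a, ∃ k ∈ labSub b, τ = u * σ * k := by
  obtain ⟨k, hk⟩ := exists_equiv_of_card_fiber (fun x => (a (τ x), b x)) (fun x => (a (σ x), b x)) (by
    intro c
    rw [← count_permType, ← count_permType, h])
  have hk1 : ∀ x, a (σ (k x)) = a (τ x) := fun x => congrArg Prod.fst (hk x)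
  have hk2 : ∀ x, b (k x) = b x := fun x => congrArg Prod.snd (hk x)
  refine ⟨τ * k⁻¹ * σ⁻¹, ?_, k, hk2, by group⟩
  intro y
  have := hk1 (k⁻¹ (σ⁻¹ y))
  rw [Equiv.Perm.mul_apply, Equiv.Perm.mul_apply, ← this]
  simp

theorem card_dc_labSub (a b : ι → ℕ) :
    Nat.card (DoubleCoset.Quotient (labSub a : Set (Equiv.Perm ι)) (labSub b))
      = Nat.card (Set.range (permType a b)) := by
  let Ψ : DoubleCoset.Quotient (labSub a : Set (Equiv.Perm ι)) (labSub b) →
      Set.range (permType a b) :=
    Quotient.lift (fun σ => (⟨permType a b σ, σ, rfl⟩ : Set.range (permType a b))) (by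
      intro σ τ hst
      obtain ⟨u, hu, k, hk, rfl⟩ := DoubleCoset.rel_iff.1 hst
      apply Subtype.ext
      exact (permType_mul a b hu hk σ).symm)
  apply Nat.card_congr (Equiv.ofBijective Ψ ⟨?_, ?_⟩)
  · intro x y hxy
    induction x using Quotient.inductionOn' with
    | h σ =>
      induction y using Quotient.inductionOn' with
      | h τ =>
        have h1 : permType a b σ = permType a b τ := congrArg Subtype.val hxy
        exact (DoubleCoset.eq _ _ σ τ).2 (exists_of_permType_eq a b h1)
  · rintro ⟨_, σ, rfl⟩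
    exact ⟨Quotient.mk'' σ, rfl⟩

end Cfsg.Agent.Lib.Helper39.Stbg
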