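import Cfsg.Agent.Lib.Helper39.Stbg.Bruhat
import Cfsg.Agent.Lib.Helper39.Stbg.Young

/-!
# Double cosets of parabolic subgroups and of Young subgroups
-/

set_option autoImplicit false
set_option linter.unusedSectionVars false

namespace Cfsg.Agent.Lib.Helper39.Stbg

open Cfsg Matrix
open scoped MatrixGroups

variable {F : Type*} [Field F] {n : ℕ}

theorem blockSub_stable {b : Fin n → ℕ} {p : GL (Fin n) F} (hp : p ∈ blockSub F b) (j : ℕ)
    {v : Fin n → F} (hv : ∀ x, j ≤ b x → v x = 0) : ∀ x, j ≤ b x → (p.1 *ᵥ v) x = 0 := by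
  intro x hx
  rw [Matrix.mulVec, dotProduct]
  apply Finset.sum_eq_zero
  intro y _
  by_cases hy : j ≤ b y
  · rw [hv y hy, mul_zero]
  · rw [hp (show b y < b x by omega), zero_mul]

/-- the invariant of a double coset -/
noncomputable def dInv (a b : Fin n → ℕ) (g : GL (Fin n) F) (i j : ℕ) : ℕ :=
  Nat.card {v : Fin n → F // (∀ x, j ≤ b x → v x = 0) ∧ (∀ y, i ≤ a y → (g.1 *ᵥ v) y = 0)}

theorem dInv_mul (a b : Fin n → ℕ) {p p' : GL (Fin n) F} (hp : p ∈ blockSub F a)
    (hp' : p' ∈ blockSub F b) (g : GL (Fin n) F) (i j : ℕ) :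
    dInv a b (p * g * p') i j = dInv a b g i j := by
  unfold dInv
  apply Nat.card_congr
  exact
    { toFun := fun v => ⟨p'.1 *ᵥ v.1, blockSub_stable hp' j v.2.1, by
        have h := blockSub_stable (inv_mem hp) i v.2.2
        have e : (p⁻¹).1 *ᵥ ((p * g * p').1 *ᵥ v.1) = g.1 *ᵥ (p'.1 *ᵥ v.1) := by
          rw [Matrix.mulVec_mulVec, Matrix.mulVec_mulVec, ← Units.val_mul, ← Units.val_mul]
          congr 2
          group
        rwa [e] at h⟩
      invFun := fun v => ⟨(p'⁻¹).1 *ᵥ v.1, blockSub_stable (inv_mem hp') j v.2.1, by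
        have h := blockSub_stable hp i v.2.2
        have e : (p * g * p').1 *ᵥ ((p'⁻¹).1 *ᵥ v.1) = p.1 *ᵥ (g.1 *ᵥ v.1) := by
          rw [Matrix.mulVec_mulVec, Matrix.mulVec_mulVec, ← Units.val_mul, ← Units.val_mul]
          congr 2
          group
        rwa [e]⟩
      left_inv := by
        intro v
        apply Subtype.ext
        simp only
        rw [Matrix.mulVec_mulVec, ← Units.val_mul, inv_mul_cancel]
        simp
      right_inv := by
        intro v
        apply Subtype.ext
        simp only
        rw [Matrix.mulVec_mulVec, ← Units.val_mul, mul_inv_cancel]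
        simp }

/-- cumulative counts -/
def posCount (a b : Fin n → ℕ) (σ : Equiv.Perm (Fin n)) (i j : ℕ) : ℕ :=
  (Finset.univ.filter fun x : Fin n => a (σ x) < i ∧ b x < j).card

theorem dInv_wGL [Fintype F] (a b : Fin n → ℕ) (σ : Equiv.Perm (Fin n)) (i j : ℕ) :
    dInv a b (wGL F σ) i j = Fintype.card F ^ posCount a b σ i j := by
  unfold dInv posCount
  rw [← card_supported (F := F)]
  apply Nat.card_congr
  apply Equiv.subtypeEquivRight
  intro v
  constructor
  · rintro ⟨h1, h2⟩ x hx
    by_cases hj : j ≤ b x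
    · exact h1 x hj
    · have h3 := h2 (σ x) (by
        by_contra hcon
        exact hx ⟨by omega, by omega⟩)
      rw [wGL_mulVec] at h3
      simpa using h3
  · intro h
    constructor
    · intro x hx
      exact h x (fun hc => by omega)
    · intro y hy
      rw [wGL_mulVec]
      apply h
      intro hc
      have := hc.1
      simp at this
      omega

theorem posCount_rel (a b : Fin n → ℕ) (σ : Equiv.Perm (Fin n)) (i j : ℕ) :
    (Finset.univ.filter fun x : Fin n => (a (σ x), b x) = (i, j)).card + posCount a b σ i (j + 1)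
      + posCount a b σ (i + 1) j = posCount a b σ (i + 1) (j + 1) + posCount a b σ i j := by
  unfold posCount
  simp only [Finset.card_filter]
  rw [← Finset.sum_add_distrib, ← Finset.sum_add_distrib, ← Finset.sum_add_distrib]
  apply Finset.sum_congr rfl
  intro x _
  simp only [Prod.mk.injEq]
  split_ifs <;> omega

theorem permType_eq_of_posCount (a b : Fin n → ℕ) {σ τ : Equiv.Perm (Fin n)}
    (h : ∀ i j, posCount a b σ i j = posCount a b τ i j) : permType a b σ = permType a b τ := by
  ext ⟨i, j⟩
  rw [count_permType, count_permType, Fintype.card_subtype, Fintype.card_subtype]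
  have h1 := posCount_rel a b σ i j
  have h2 := posCount_rel a b τ i j
  rw [h, h, h, h] at h1
  omega

theorem wGL_mem_blockSub {a : Fin n → ℕ} {σ : Equiv.Perm (Fin n)} (hσ : σ ∈ labSub a) :
    wGL F σ ∈ blockSub F a := by
  intro i j hij
  change (wGL F σ).1 i j = 0
  rw [wGL_apply, if_neg]
  rintro rfl
  rw [hσ] at hij
  exact lt_irrefl _ hij

theorem card_dc_blockSub [Fintype F] {a b : Fin n → ℕ} (ha : Monotone a) (hb : Monotone b) :
    Nat.card (DoubleCoset.Quotient (blockSub F a : Set (GL (Fin n) F)) (blockSub F b))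
      = Nat.card (DoubleCoset.Quotient (labSub a : Set (Equiv.Perm (Fin n))) (labSub b)) := by
  symm
  let Ψ : DoubleCoset.Quotient (labSub a : Set (Equiv.Perm (Fin n))) (labSub b) →
      DoubleCoset.Quotient (blockSub F a : Set (GL (Fin n) F)) (blockSub F b) :=
    Quotient.lift (fun σ => DoubleCoset.mk (blockSub F a) (blockSub F b) (wGL F σ)) (by
      intro σ τ hst
      obtain ⟨u, hu, k, hk, rfl⟩ := DoubleCoset.rel_iff.1 hst
      rw [DoubleCoset.eq]
      exact ⟨wGL F u, wGL_mem_blockSub hu, wGL F k, wGL_mem_blockSub hk, by rw [map_mul, map_mul]⟩)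
  apply Nat.card_congr (Equiv.ofBijective Ψ ⟨?_, ?_⟩)
  · intro x y hxy
    induction x using Quotient.inductionOn' with
    | h σ =>
      induction y using Quotient.inductionOn' with
      | h τ =>
        obtain ⟨p, hp, p', hp', e⟩ := (DoubleCoset.eq _ _ _ _).1 hxy
        apply (DoubleCoset.eq _ _ σ τ).2
        apply exists_of_permType_eq
        apply permType_eq_of_posCount
        intro i j
        have h1 := dInv_mul a b hp hp' (wGL F σ) i j
        rw [← e, dInv_wGL, dInv_wGL] at h1
        exact (Nat.pow_right_injective Fintype.one_lt_card h1).symm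
  · intro c
    induction c using Quotient.inductionOn' with
    | h g =>
      obtain ⟨u, hu, u', hu', σ, rfl⟩ := bruhat g
      refine ⟨Quotient.mk'' σ, ?_⟩
      apply (DoubleCoset.eq _ _ _ _).2
      exact ⟨u, borel_le ha hu, u', borel_le hb hu', rfl⟩

end Cfsg.Agent.Lib.Helper39.Stbg
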