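import Cfsg.Agent.Lib.Helper39.Stbg.Index

/-!
# The degrees of the alternating sums of flag characters
-/

set_option autoImplicit false
set_option linter.unusedSectionVars false

namespace Cfsg.Agent.Lib.Helper39.Stbg

open Cfsg Module Polynomial
open scoped MatrixGroups

/-- falling `q`-factorials -/
def qFall (q m k : ℕ) : ℕ := ∏ t ∈ Finset.range k, qInt q (m - t)

theorem qFall_eq_zero (q : ℕ) {m k : ℕ} (h : m < k) : qFall q m k = 0 := by
  unfold qFall
  apply Finset.prod_eq_zero (Finset.mem_range.2 h)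
  rw [Nat.sub_self]
  rfl

theorem qFac_eq (q : ℕ) {m k : ℕ} (h : k ≤ m) : qFac q m = qFac q (m - k) * qFall q m k := by
  induction k with
  | zero => simp [qFall]
  | succ k ih =>
    rw [ih (by omega)]
    have h1 : qFall q m (k + 1) = qFall q m k * qInt q (m - k) := by
      unfold qFall
      rw [Finset.prod_range_succ]
    have h2 : qFac q (m - k) = qFac q (m - (k + 1)) * qInt q (m - k) := by
      have : m - k = (m - (k + 1)) + 1 := by omega
      rw [this]
      unfold qFac
      rw [Finset.prod_range_succ]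
    rw [h1, h2]
    ring

theorem qInt_add (q a b : ℕ) : qInt q (a + b) = qInt q a + q ^ a * qInt q b := by
  unfold qInt
  rw [Finset.sum_range_add, Finset.mul_sum]
  congr 1
  apply Finset.sum_congr rfl
  intro x _
  rw [pow_add]

/-- the monic polynomials `∏_{t<k} (X - [t])` -/
noncomputable def qPoly (q k : ℕ) : ℂ[X] := ∏ t ∈ Finset.range k, (X - C (qInt q t : ℂ))

theorem qPoly_monic (q k : ℕ) : (qPoly q k).Monic := by
  unfold qPoly
  exact monic_prod_of_monic _ _ (fun t _ => monic_X_sub_C _)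

theorem qPoly_natDegree (q k : ℕ) : (qPoly q k).natDegree = k := by
  unfold qPoly
  rw [natDegree_prod_of_monic _ _ (fun t _ => monic_X_sub_C _)]
  simp_rw [natDegree_X_sub_C]
  simp

theorem qPoly_eval (q m k : ℕ) :
    (qPoly q k).eval (qInt q m : ℂ) = (q : ℂ) ^ (∑ t ∈ Finset.range k, t) * (qFall q m k : ℂ) := by
  by_cases h : m < k
  · rw [qFall_eq_zero q h, Nat.cast_zero, mul_zero]
    unfold qPoly
    rw [eval_prod]
    apply Finset.prod_eq_zero (Finset.mem_range.2 h)
    simp
  · push Not at h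
    unfold qPoly qFall
    rw [eval_prod, ← Finset.prod_pow_eq_pow_sum, Nat.cast_prod, ← Finset.prod_mul_distrib]
    apply Finset.prod_congr rfl
    intro t ht
    rw [Finset.mem_range] at ht
    have h1 := qInt_add q t (m - t)
    rw [Nat.add_sub_cancel' (by omega)] at h1
    rw [eval_sub, eval_X, eval_C, h1]
    push_cast
    ring

theorem sum_sum_range (n : ℕ) :
    ∑ j ∈ Finset.range n, ∑ t ∈ Finset.range j, t = n * (n - 1) * (n - 2) / 6 := by
  have h : ∀ n, 6 * ∑ j ∈ Finset.range n, ∑ t ∈ Finset.range j, t = n * (n - 1) * (n - 2) := by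
    intro n
    induction n with
    | zero => simp
    | succ n ih =>
      rw [Finset.sum_range_succ, mul_add, ih]
      have h2 := Finset.sum_range_id_mul_two n
      have h3 : 6 * ∑ t ∈ Finset.range n, t = 3 * (n * (n - 1)) := by
        rw [← h2]; ring
      rw [h3]
      rcases n with _ | _ | n
      · simp
      · simp
      · simp only [Nat.add_sub_cancel]
        have e1 : n + 1 + 1 - 1 = n + 1 := by omega
        have e2 : n + 1 + 1 - 2 = n := by omega
        have e3 : n + 1 + 1 + 1 - 2 = n + 1 := by omega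
        rw [e2, e3]
        ring
  rw [← h n, Nat.mul_div_cancel_left _ (by norm_num)]

variable {n : ℕ} {F : Type*} [Field F] [Fintype F]

theorem fixedPointCharacter_one {G : Type*} [Group G] (H : Subgroup G) :
    fixedPointCharacter H 1 = (Nat.card (G ⧸ H) : ℂ) := by
  unfold fixedPointCharacter
  congr 1
  have : MulAction.fixedBy (G ⧸ H) (1 : G) = Set.univ := by
    ext x
    simp
  rw [this]
  exact Nat.card_congr (Equiv.Set.univ _)

theorem sum_shift_sub {ν : Fin n → ℕ} (hsum : ∑ i, ν i = n) (κ : Equiv.Perm (Fin n))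
    (hκ : ∀ i : Fin n, (κ i).val ≤ ν i + i.val) :
    ∑ i : Fin n, (ν i + i.val - (κ i).val) = n := by
  have h1 : ∑ i : Fin n, (ν i + i.val - (κ i).val) + ∑ i : Fin n, (κ i).val
      = ∑ i : Fin n, ν i + ∑ i : Fin n, i.val := by
    rw [← Finset.sum_add_distrib, ← Finset.sum_add_distrib]
    apply Finset.sum_congr rfl
    intro i _
    exact Nat.sub_add_cancel (hκ i)
  have h2 : ∑ i : Fin n, (κ i).val = ∑ i : Fin n, i.val := Equiv.sum_comp κ (fun i : Fin n => i.val)
  rw [h2, hsum] at h1
  omega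

theorem unipotent_degree {q : ℕ} (hq : Fintype.card F = q) (ν : Fin n → ℕ) (hsum : ∑ i, ν i = n) :
    unipotentCharacterGL n F ν 1 * (q : ℂ) ^ (n * (n - 1) * (n - 2) / 6) *
        ∏ i : Fin n, (qFac q (ν i + i.val) : ℂ) =
      (qFac q n : ℂ) * ∏ i : Fin n, ∏ j ∈ Finset.Ioi i,
          ((qInt q (ν j + j.val) : ℂ) - (qInt q (ν i + i.val) : ℂ)) := by
  have h1 : unipotentCharacterGL n F ν 1 * ∏ i : Fin n, (qFac q (ν i + i.val) : ℂ)
      = (qFac q n : ℂ) * ∑ κ : Equiv.Perm (Fin n), ((Equiv.Perm.sign κ : ℤ) : ℂ) *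
        ∏ i : Fin n, (qFall q (ν i + i.val) (κ i).val : ℂ) := by
    unfold unipotentCharacterGL
    rw [Finset.sum_mul, Finset.mul_sum]
    apply Finset.sum_congr rfl
    intro κ _
    split_ifs with hκ
    · have h2 := parabolic_index hq (fun i => ν i + i.val - (κ i).val) (sum_shift_sub hsum κ hκ)
      rw [fixedPointCharacter_one, ← h2]
      have h3 : ∏ i : Fin n, (qFac q (ν i + i.val) : ℂ)
          = (∏ i : Fin n, (qFac q (ν i + i.val - (κ i).val) : ℂ)) *
            ∏ i : Fin n, (qFall q (ν i + i.val) (κ i).val : ℂ) := by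
        rw [← Finset.prod_mul_distrib]
        apply Finset.prod_congr rfl
        intro i _
        rw [qFac_eq q (hκ i)]
        push_cast
        ring
      rw [h3]
      push_cast
      ring
    · push Not at hκ
      obtain ⟨i, hi⟩ := hκ
      rw [zero_mul, Finset.prod_eq_zero (Finset.mem_univ i) (by rw [qFall_eq_zero q hi]; simp)]
      ring
  have h2 : (q : ℂ) ^ (n * (n - 1) * (n - 2) / 6) * ∑ κ : Equiv.Perm (Fin n),
      ((Equiv.Perm.sign κ : ℤ) : ℂ) * ∏ i : Fin n, (qFall q (ν i + i.val) (κ i).val : ℂ)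
      = ∏ i : Fin n, ∏ j ∈ Finset.Ioi i,
          ((qInt q (ν j + j.val) : ℂ) - (qInt q (ν i + i.val) : ℂ)) := by
    rw [← Matrix.det_vandermonde, Matrix.det_eval_matrixOfPolynomials_eq_det_vandermonde _
      (fun j : Fin n => qPoly q j.val) (fun j => qPoly_natDegree q j.val)
      (fun j => qPoly_monic q j.val)]
    simp_rw [qPoly_eval]
    have h3 := Matrix.det_mul_row (fun j : Fin n => (q : ℂ) ^ (∑ t ∈ Finset.range j.val, t))
      (Matrix.of fun i j : Fin n => (qFall q (ν i + i.val) j.val : ℂ))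
    simp only [Matrix.of_apply] at h3
    rw [h3,
      Finset.prod_pow_eq_pow_sum, Fin.sum_univ_eq_sum_range (fun j => ∑ t ∈ Finset.range j, t) n,
      sum_sum_range, ← Matrix.det_transpose, Matrix.det_apply']
    rfl
  calc _ = (q : ℂ) ^ (n * (n - 1) * (n - 2) / 6) *
        (unipotentCharacterGL n F ν 1 * ∏ i : Fin n, (qFac q (ν i + i.val) : ℂ)) := by ring
    _ = _ := by rw [h1, mul_left_comm, h2]

end Cfsg.Agent.Lib.Helper39.Stbg
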