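import Cfsg.Agent.Lib.Helper39.Stbg.Margin
import Cfsg.Agent.Lib.Helper39.Stbg.Compare
import Cfsg.Agent.Lib.Helper39.Stbg.Degree
import Cfsg.Agent.Lib.Helper26.Virtual
import Cfsg.Agent.Lib.Helper3.Perm
import Cfsg.Agent.Lib.Helper15.CharTools

/-!
# Orthonormality and irreducibility of the unipotent characters of `GL_n(q)`
-/

set_option autoImplicit false
set_option linter.unusedSectionVars false

namespace Cfsg.Agent.Lib.Helper39.Stbg

open Cfsg
open scoped MatrixGroups ComplexConjugate

variable {F : Type*} [Field F] [Fintype F] {n : ℕ}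

theorem inner_parabolic [Fintype (GL (Fin n) F)] {α β : Fin n → ℕ}
    (hα : ∑ i, α i = n) (hβ : ∑ i, β i = n) :
    (Nat.card (GL (Fin n) F) : ℂ)⁻¹ * ∑ g, fixedPointCharacter (parabolicGL n F α) g *
      fixedPointCharacter (parabolicGL n F β) g = (Nc α β : ℂ) := by
  rw [inner_fixedPoint, parabolicGL_eq, parabolicGL_eq,
    card_dc_blockSub (compLabel_mono α) (compLabel_mono β), card_dc_young hα hβ]

theorem shift_strictMono {ν : Fin n → ℕ} (hmono : Monotone ν) :
    StrictMono (fun i : Fin n => ν i + i.val) := by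
  intro i j hij
  have h1 := hmono hij.le
  have h2 : i.val < j.val := hij
  simp only
  omega

theorem inner_unipotent [Fintype (GL (Fin n) F)] (ν ν' : Fin n → ℕ)
    (hmono : Monotone ν) (hsum : ∑ i, ν i = n) (hmono' : Monotone ν') (hsum' : ∑ i, ν' i = n) :
    classInner (unipotentCharacterGL n F ν) (unipotentCharacterGL n F ν')
      = if ν = ν' then 1 else 0 := by
  have hc := cauchy_count _ _ (shift_strictMono hmono) (shift_strictMono hmono')
  have hiff : ((fun i : Fin n => ν i + i.val) = fun i : Fin n => ν' i + i.val) ↔ ν = ν' := by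
    constructor
    · intro h
      funext i
      exact Nat.add_right_cancel (congrFun h i)
    · rintro rfl
      rfl
  have hc2 := congrArg (Int.cast : ℤ → ℂ) hc
  simp only [hiff] at hc2
  have e0 : ((if ν = ν' then (1 : ℤ) else 0 : ℤ) : ℂ) = if ν = ν' then 1 else 0 := by
    split_ifs <;> simp
  rw [e0] at hc2
  rw [← hc2, Int.cast_sum]
  unfold classInner unipotentCharacterGL
  have e1 : ∀ g : GL (Fin n) F, conj (∑ κ : Equiv.Perm (Fin n),
      if ∀ i : Fin n, (κ i).val ≤ ν' i + i.val then
        ((Equiv.Perm.sign κ : ℤ) : ℂ) *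
          fixedPointCharacter (parabolicGL n F fun i => ν' i + i.val - (κ i).val) g
      else 0) = ∑ κ : Equiv.Perm (Fin n),
      if ∀ i : Fin n, (κ i).val ≤ ν' i + i.val then
        ((Equiv.Perm.sign κ : ℤ) : ℂ) *
          fixedPointCharacter (parabolicGL n F fun i => ν' i + i.val - (κ i).val) g
      else 0 := by
    intro g
    rw [map_sum]
    apply Finset.sum_congr rfl
    intro κ _
    split_ifs
    · simp [fixedPointCharacter]
    · simp
  simp_rw [e1, Finset.sum_mul_sum]
  rw [Finset.sum_comm, Finset.mul_sum]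
  apply Finset.sum_congr rfl
  intro κ _
  rw [Finset.sum_comm, Finset.mul_sum, Int.cast_sum]
  apply Finset.sum_congr rfl
  intro κ' _
  by_cases hk : ∀ i : Fin n, (κ i).val ≤ ν i + i.val
  · by_cases hk' : ∀ i : Fin n, (κ' i).val ≤ ν' i + i.val
    · simp only [if_pos hk, if_pos hk']
      have := inner_parabolic (F := F) (sum_shift_sub hsum κ hk) (sum_shift_sub hsum' κ' hk')
      push_cast
      rw [← this, Finset.mul_sum, Finset.mul_sum, Finset.mul_sum]
      apply Finset.sum_congr rfl
      intro g _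
      ring
    · simp [if_neg hk']
  · simp [if_neg hk]

theorem unipotent_gen (ν : Fin n → ℕ) :
    IsGeneralizedCharacter (GL (Fin n) F) (unipotentCharacterGL n F ν) := by
  classical
  have e : unipotentCharacterGL n F ν = ∑ κ : Equiv.Perm (Fin n),
      if ∀ i : Fin n, (κ i).val ≤ ν i + i.val then
        (Equiv.Perm.sign κ : ℤ) •
          fixedPointCharacter (parabolicGL n F fun i => ν i + i.val - (κ i).val)
      else 0 := by
    funext g
    unfold unipotentCharacterGL
    rw [Finset.sum_apply]
    apply Finset.sum_congr rfl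
    intro κ _
    split_ifs
    · simp
    · rfl
  rw [e]
  apply Helper26.gen_sum
  intro κ _
  split_ifs
  · apply Helper26.gen_zsmul
    apply Helper26.gen_of_char
    exact Helper3.isCharacter_card_fixedBy _
  · exact Helper26.gen_zero

theorem qInt_strictMono (q : ℕ) (hq : 1 ≤ q) : StrictMono (qInt q) := by
  apply strictMono_nat_of_lt_succ
  intro k
  unfold qInt
  rw [Finset.sum_range_succ]
  have : 0 < q ^ k := Nat.pow_pos hq
  omega

theorem unipotent_one (ν : Fin n → ℕ) (hmono : Monotone ν) (hsum : ∑ i, ν i = n) :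
    ∃ A B : ℕ, 0 < A ∧ 0 < B ∧ unipotentCharacterGL n F ν 1 * (A : ℂ) = (B : ℂ) := by
  have hq : 1 ≤ Fintype.card F := Fintype.card_pos
  have h := unipotent_degree (F := F) rfl ν hsum
  refine ⟨Fintype.card F ^ (n * (n - 1) * (n - 2) / 6) *
      ∏ i : Fin n, qFac (Fintype.card F) (ν i + i.val),
    qFac (Fintype.card F) n * ∏ i : Fin n, ∏ j ∈ Finset.Ioi i,
      (qInt (Fintype.card F) (ν j + j.val) - qInt (Fintype.card F) (ν i + i.val)), ?_, ?_, ?_⟩
  · apply Nat.mul_pos (Nat.pow_pos hq)
    apply Finset.prod_pos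
    intro i _
    exact qFac_pos _ _ hq
  · apply Nat.mul_pos (qFac_pos _ _ hq)
    apply Finset.prod_pos
    intro i _
    apply Finset.prod_pos
    intro j hj
    exact Nat.sub_pos_of_lt (qInt_strictMono _ hq (shift_strictMono hmono (Finset.mem_Ioi.1 hj)))
  · push_cast
    rw [← mul_assoc, h]
    congr 1
    apply Finset.prod_congr rfl
    intro i _
    apply Finset.prod_congr rfl
    intro j hj
    rw [Nat.cast_sub
      (qInt_strictMono _ hq (shift_strictMono hmono (Finset.mem_Ioi.1 hj))).le]

theorem unipotent_irr (ν : Fin n → ℕ) (hmono : Monotone ν) (hsum : ∑ i, ν i = n) :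
    IsIrrCharacter (GL (Fin n) F) (unipotentCharacterGL n F ν) := by
  classical
  have hin := inner_unipotent (F := F) ν ν hmono hsum hmono hsum
  rw [if_pos rfl] at hin
  rcases Helper26.gen_norm_one (unipotent_gen ν) hin with h | h
  · exact h
  · exfalso
    obtain ⟨m, hm⟩ := Helper15.char_one_nat (Helper3.IsIrrCharacter.isCharacter h)
    obtain ⟨A, B, hA, hB, hAB⟩ := unipotent_one (F := F) ν hmono hsum
    rw [Pi.neg_apply] at hm
    have h1 : unipotentCharacterGL n F ν 1 = -(m : ℂ) := by
      rw [← hm, neg_neg]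
    rw [h1] at hAB
    have h2 : -(m : ℤ) * (A : ℤ) = (B : ℤ) := by exact_mod_cast hAB
    have h3 : (0 : ℤ) ≤ (m : ℤ) * (A : ℤ) := by positivity
    have h4 : (0 : ℤ) < (B : ℤ) := by exact_mod_cast hB
    linarith

theorem unipotent_inj (ν ν' : Fin n → ℕ)
    (hmono : Monotone ν) (hsum : ∑ i, ν i = n) (hmono' : Monotone ν') (hsum' : ∑ i, ν' i = n)
    (h : unipotentCharacterGL n F ν = unipotentCharacterGL n F ν') : ν = ν' := by
  classical
  have h1 := inner_unipotent (F := F) ν ν hmono hsum hmono hsum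
  have h2 := inner_unipotent (F := F) ν ν' hmono hsum hmono' hsum'
  rw [if_pos rfl] at h1
  rw [← h, h1] at h2
  by_contra hne
  rw [if_neg hne] at h2
  exact one_ne_zero h2

end Cfsg.Agent.Lib.Helper39.Stbg
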