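import Mathlib

/-!
# The Jacobi-Trudi / bialternant identity
-/

set_option autoImplicit false
set_option linter.unusedSectionVars false

namespace Cfsg.Agent.Lib.Helper39.Stbg

open MvPolynomial

variable {n : ℕ}

/-- complete homogeneous symmetric polynomials -/
noncomputable def hS (n m : ℕ) : MvPolynomial (Fin n) ℤ :=
  ∑ r ∈ Finset.finsuppAntidiag (Finset.univ : Finset (Fin n)) m, monomial r 1

/-- with the convention that negative indices give zero -/
noncomputable def hh (n m j : ℕ) : MvPolynomial (Fin n) ℤ := if j ≤ m then hS n (m - j) else 0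

/-- geometric series -/
noncomputable def geo (l : Fin n) : PowerSeries (MvPolynomial (Fin n) ℤ) :=
  PowerSeries.mk fun k => (X l : MvPolynomial (Fin n) ℤ) ^ k

theorem geo_mul (l : Fin n) :
    (1 - PowerSeries.C (X l : MvPolynomial (Fin n) ℤ) * PowerSeries.X) * geo l = 1 := by
  refine PowerSeries.ext fun k => ?_
  rw [sub_mul, one_mul, map_sub, mul_assoc, PowerSeries.coeff_C_mul]
  cases k with
  | zero =>
    rw [PowerSeries.coeff_zero_X_mul]
    simp [geo]
  | succ k =>
    rw [PowerSeries.coeff_succ_X_mul]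
    simp [geo, PowerSeries.coeff_one, pow_succ, mul_comm]

theorem mk_hS : PowerSeries.mk (hS n) = ∏ l : Fin n, geo l := by
  refine PowerSeries.ext fun m => ?_
  rw [PowerSeries.coeff_mk, PowerSeries.coeff_prod]
  unfold hS
  apply Finset.sum_congr rfl
  intro r _
  simp only [geo, PowerSeries.coeff_mk]
  rw [MvPolynomial.monomial_eq, map_one, one_mul, Finsupp.prod_fintype]
  intro i
  exact pow_zero _

/-- the polynomial `∏_{l ≠ k} (1 - y_l t)` -/
noncomputable def eP (k : Fin n) : Polynomial (MvPolynomial (Fin n) ℤ) :=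
  ∏ l ∈ Finset.univ.erase k, (1 - Polynomial.C (X l : MvPolynomial (Fin n) ℤ) * Polynomial.X)

theorem eP_mul (k : Fin n) :
    ((eP k : Polynomial (MvPolynomial (Fin n) ℤ)) : PowerSeries (MvPolynomial (Fin n) ℤ)) *
      PowerSeries.mk (hS n) = geo k := by
  have h1 : ((eP k : Polynomial (MvPolynomial (Fin n) ℤ)) : PowerSeries (MvPolynomial (Fin n) ℤ))
      = ∏ l ∈ Finset.univ.erase k,
        (1 - PowerSeries.C (X l : MvPolynomial (Fin n) ℤ) * PowerSeries.X) := by
    unfold eP
    have := map_prod (Polynomial.coeToPowerSeries.ringHom (R := MvPolynomial (Fin n) ℤ))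
      (fun l => (1 - Polynomial.C (X l : MvPolynomial (Fin n) ℤ) * Polynomial.X))
      (Finset.univ.erase k)
    simp only [Polynomial.coeToPowerSeries.ringHom_apply] at this
    rw [this]
    apply Finset.prod_congr rfl
    intro l _
    simp
  rw [h1, mk_hS, ← Finset.mul_prod_erase Finset.univ geo (Finset.mem_univ k), mul_left_comm,
    ← Finset.prod_mul_distrib]
  simp_rw [geo_mul]
  simp

theorem eP_natDegree (k : Fin n) : (eP k).natDegree < n := by
  unfold eP
  have h1 := Polynomial.natDegree_prod_le (Finset.univ.erase k)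
    (fun l => (1 - Polynomial.C (X l : MvPolynomial (Fin n) ℤ) * Polynomial.X))
  have h2 : ∑ l ∈ Finset.univ.erase k,
      (1 - Polynomial.C (X l : MvPolynomial (Fin n) ℤ) * Polynomial.X).natDegree
      ≤ ∑ l ∈ Finset.univ.erase k, 1 := by
    apply Finset.sum_le_sum
    intro l _
    refine (Polynomial.natDegree_sub_le _ _).trans ?_
    rw [Polynomial.natDegree_one]
    exact max_le (Nat.zero_le _) ((Polynomial.natDegree_C_mul_le _ _).trans Polynomial.natDegree_X_le)
  rw [Finset.sum_const, Finset.card_erase_of_mem (Finset.mem_univ _), Finset.card_univ,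
    Fintype.card_fin, smul_eq_mul, mul_one] at h2
  have := k.2
  omega

theorem sum_eP_hh (k : Fin n) (m : ℕ) :
    ∑ j : Fin n, hh n m j.val * (eP k).coeff j.val = (X k : MvPolynomial (Fin n) ℤ) ^ m := by
  have h1 := congrArg (PowerSeries.coeff m) (eP_mul k)
  rw [PowerSeries.coeff_mul, Finset.Nat.sum_antidiagonal_eq_sum_range_succ_mk] at h1
  simp only [Polynomial.coeff_coe, PowerSeries.coeff_mk, geo] at h1
  rw [← h1, Fin.sum_univ_eq_sum_range (fun j => hh n m j * (eP k).coeff j) n]
  have e1 : ∑ j ∈ Finset.range n, hh n m j * (eP k).coeff j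
      = ∑ j ∈ Finset.range (max n (m + 1)), hh n m j * (eP k).coeff j := by
    apply Finset.sum_subset
    · intro j hj
      rw [Finset.mem_range] at hj ⊢
      exact lt_of_lt_of_le hj (le_max_left _ _)
    · intro j _ hj
      rw [Finset.mem_range, not_lt] at hj
      rw [Polynomial.coeff_eq_zero_of_natDegree_lt (lt_of_lt_of_le (eP_natDegree k) hj), mul_zero]
  have e2 : ∑ j ∈ Finset.range (m + 1), (eP k).coeff j * hS n (m - j)
      = ∑ j ∈ Finset.range (max n (m + 1)), hh n m j * (eP k).coeff j := by
    have e3 : ∑ j ∈ Finset.range (m + 1), (eP k).coeff j * hS n (m - j)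
        = ∑ j ∈ Finset.range (m + 1), hh n m j * (eP k).coeff j := by
      apply Finset.sum_congr rfl
      intro j hj
      rw [Finset.mem_range] at hj
      unfold hh
      rw [if_pos (by omega), mul_comm]
    rw [e3]
    apply Finset.sum_subset
    · intro j hj
      rw [Finset.mem_range] at hj ⊢
      exact lt_of_lt_of_le hj (le_max_right _ _)
    · intro j _ hj
      rw [Finset.mem_range, not_lt] at hj
      unfold hh
      rw [if_neg (by omega), zero_mul]
  rw [e1, e2]

/-- the alternant -/
noncomputable def altM (lam : Fin n → ℕ) : Matrix (Fin n) (Fin n) (MvPolynomial (Fin n) ℤ) :=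
  Matrix.of fun i k => (X k : MvPolynomial (Fin n) ℤ) ^ lam i

/-- the Jacobi-Trudi matrix -/
noncomputable def jtM (lam : Fin n → ℕ) : Matrix (Fin n) (Fin n) (MvPolynomial (Fin n) ℤ) :=
  Matrix.of fun i j => hh n (lam i) j.val

theorem altM_eq (lam : Fin n → ℕ) :
    altM lam = jtM lam * Matrix.of fun (j k : Fin n) => (eP k).coeff j.val := by
  refine Matrix.ext fun i k => ?_
  rw [Matrix.mul_apply]
  exact (sum_eP_hh k (lam i)).symm

theorem det_jtM_id : (jtM (fun i : Fin n => i.val)).det = 1 := by
  rw [← Matrix.det_transpose, Matrix.det_of_isUpperTriangular]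
  · apply Finset.prod_eq_one
    intro i _
    simp [jtM, hh, hS]
  · intro i j hij
    simp only [Matrix.transpose_apply, jtM, Matrix.of_apply, hh]
    rw [if_neg]
    exact not_le.2 hij

theorem det_altM (lam : Fin n → ℕ) :
    (altM lam).det = (jtM lam).det * (altM (fun i : Fin n => i.val)).det := by
  rw [altM_eq lam, altM_eq (fun i : Fin n => i.val), Matrix.det_mul, Matrix.det_mul, det_jtM_id,
    one_mul]

end Cfsg.Agent.Lib.Helper39.Stbg
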