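import Cfsg.Agent.Lib.Helper39.Stbg.Cauchy

/-!
# Coefficient extraction from the bialternant identity
-/

set_option autoImplicit false
set_option linter.unusedSectionVars false

namespace Cfsg.Agent.Lib.Helper39.Stbg

open MvPolynomial

variable {n : ℕ}

/-- function to finsupp -/
noncomputable def toF (f : Fin n → ℕ) : Fin n →₀ ℕ := Finsupp.equivFunOnFinite.symm f

theorem toF_apply (f : Fin n → ℕ) (i : Fin n) : toF f i = f i := rfl

theorem toF_inj {f g : Fin n → ℕ} : toF f = toF g ↔ f = g :=
  Finsupp.equivFunOnFinite.symm.injective.eq_iff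

/-- number of matrices with given margins -/
noncomputable def Nc (α β : Fin n → ℕ) : ℕ :=
  ((Fintype.piFinset fun i : Fin n =>
    Finset.finsuppAntidiag (Finset.univ : Finset (Fin n)) (α i)).filter
    fun p => ∑ i, p i = toF β).card

theorem coeff_prod_hS (α β : Fin n → ℕ) :
    coeff (toF β) (∏ i, hS n (α i)) = (Nc α β : ℤ) := by
  unfold hS Nc
  rw [Finset.prod_univ_sum, coeff_sum, Finset.card_filter]
  push_cast
  apply Finset.sum_congr rfl
  intro p _
  rw [← MvPolynomial.monomial_sum_one, coeff_monomial]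

theorem prod_X_pow (f : Fin n → ℕ) :
    ∏ i, (X i : MvPolynomial (Fin n) ℤ) ^ f i = monomial (toF f) 1 := by
  rw [MvPolynomial.monomial_eq, map_one, one_mul, Finsupp.prod_fintype]
  · rfl
  · intro i
    exact pow_zero _

theorem det_altM_eq (lam : Fin n → ℕ) :
    (altM lam).det = ∑ σ : Equiv.Perm (Fin n),
      C (Equiv.Perm.sign σ : ℤ) * monomial (toF (fun i => lam (σ i))) 1 := by
  rw [Matrix.det_apply']
  apply Finset.sum_congr rfl
  intro σ _
  rw [← prod_X_pow]
  congr 1

theorem coeff_det_altM (lam lam' : Fin n → ℕ) (h : StrictMono lam) (h' : StrictMono lam') :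
    coeff (toF lam') (altM lam).det = if lam = lam' then 1 else 0 := by
  rw [det_altM_eq, coeff_sum]
  simp only [coeff_C_mul, coeff_monomial, toF_inj]
  have key : ∀ σ : Equiv.Perm (Fin n), (fun i => lam (σ i)) = lam' → lam = lam' ∧ σ = 1 := by
    intro σ hs
    have h1 : lam' = lam := by
      apply (h'.range_inj h).1
      rw [← hs]
      exact σ.surjective.range_comp lam
    refine ⟨h1.symm, ?_⟩
    ext i
    have := congrFun hs i
    rw [h1] at this
    rw [h.injective this]
    rfl
  by_cases hl : lam = lam'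
  · rw [if_pos hl, Finset.sum_eq_single 1]
    · subst hl
      simp
    · intro σ _ hs
      rw [if_neg (fun hc => hs (key σ hc).2), mul_zero]
    · intro hc
      exact absurd (Finset.mem_univ _) hc
  · rw [if_neg hl]
    apply Finset.sum_eq_zero
    intro σ _
    rw [if_neg (fun hc => hl (key σ hc).1), mul_zero]

theorem det_jtM_eq (lam : Fin n → ℕ) :
    (jtM lam).det = ∑ κ : Equiv.Perm (Fin n),
      if ∀ i, (κ i).val ≤ lam i then
        C (Equiv.Perm.sign κ : ℤ) * ∏ i, hS n (lam i - (κ i).val) else 0 := by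
  rw [← Matrix.det_transpose, Matrix.det_apply']
  apply Finset.sum_congr rfl
  intro κ _
  simp only [Matrix.transpose_apply, jtM, Matrix.of_apply, hh]
  by_cases hk : ∀ i, (κ i).val ≤ lam i
  · rw [if_pos hk]
    congr 1
    apply Finset.prod_congr rfl
    intro i _
    rw [if_pos (hk i)]
  · rw [if_neg hk]
    push Not at hk
    obtain ⟨i, hi⟩ := hk
    rw [Finset.prod_eq_zero (Finset.mem_univ i) (if_neg (not_le.2 hi)), mul_zero]

theorem cauchy_count (lam lam' : Fin n → ℕ) (h : StrictMono lam) (h' : StrictMono lam') :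
    (∑ κ : Equiv.Perm (Fin n), ∑ κ' : Equiv.Perm (Fin n),
      if ∀ i, (κ i).val ≤ lam i then
        if ∀ i, (κ' i).val ≤ lam' i then
          (Equiv.Perm.sign κ : ℤ) * (Equiv.Perm.sign κ' : ℤ) *
            (Nc (fun i => lam i - (κ i).val) (fun i => lam' i - (κ' i).val) : ℤ)
        else 0
      else 0) = if lam = lam' then 1 else 0 := by
  rw [← coeff_det_altM lam lam' h h', det_altM, det_jtM_eq, det_altM_eq, Finset.sum_mul, coeff_sum]
  apply Finset.sum_congr rfl
  intro κ _
  rw [Finset.mul_sum, coeff_sum]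
  apply Finset.sum_congr rfl
  intro κ' _
  by_cases hk : ∀ i, (κ i).val ≤ lam i
  · rw [if_pos hk, if_pos hk]
    rw [mul_left_comm, coeff_C_mul, mul_assoc (C _), coeff_C_mul, coeff_mul_monomial']
    have e1 : (toF (fun i => (κ' i).val) ≤ toF lam') ↔ ∀ i, (κ' i).val ≤ lam' i := Iff.rfl
    by_cases hk' : ∀ i, (κ' i).val ≤ lam' i
    · rw [if_pos hk', if_pos (e1.2 hk')]
      have e2 : toF lam' - toF (fun i => (κ' i).val) = toF (fun i => lam' i - (κ' i).val) := by
        ext i
        rfl
      rw [e2, coeff_prod_hS]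
      ring
    · rw [if_neg hk', if_neg (fun hc => hk' (e1.1 hc))]
      simp
  · rw [if_neg hk, if_neg hk, zero_mul, coeff_zero]

end Cfsg.Agent.Lib.Helper39.Stbg
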