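import Mathlib
import Cfsg.Prelude.Def_LinearParabolics
import Cfsg.Agent.Lib.Helper3.Perm

/-!
# Inner products of permutation characters and double cosets
-/

set_option autoImplicit false
set_option linter.unusedSectionVars false

namespace Cfsg.Agent.Lib.Helper39.Stbg

open Cfsg MulAction

variable {G : Type*} [Group G]

/-- the relative position of two cosets -/
noncomputable def relPos (H K : Subgroup G) (p : (G ⧸ H) × (G ⧸ K)) :
    DoubleCoset.Quotient (H : Set G) K :=
  DoubleCoset.mk H K ((p.1.out)⁻¹ * p.2.out)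

theorem relPos_mk (H K : Subgroup G) (x y : G) :
    relPos H K ((x : G ⧸ H), (y : G ⧸ K)) = DoubleCoset.mk H K (x⁻¹ * y) := by
  unfold relPos
  obtain ⟨h, hh⟩ := QuotientGroup.mk_out_eq_mul H x
  obtain ⟨k, hk⟩ := QuotientGroup.mk_out_eq_mul K y
  simp only
  rw [hh, hk, DoubleCoset.eq]
  refine ⟨h.1, h.2, k.1⁻¹, K.inv_mem k.2, ?_⟩
  group

theorem relPos_smul (H K : Subgroup G) (g : G) (p : (G ⧸ H) × (G ⧸ K)) :
    relPos H K (g • p) = relPos H K p := by
  obtain ⟨a, b⟩ := p
  induction a using QuotientGroup.induction_on with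
  | H x =>
    induction b using QuotientGroup.induction_on with
    | H y =>
      change relPos H K (((g * x : G) : G ⧸ H), ((g * y : G) : G ⧸ K)) = _
      rw [relPos_mk, relPos_mk]
      congr 1
      group

theorem relPos_eq (H K : Subgroup G) (p p' : (G ⧸ H) × (G ⧸ K)) (h : relPos H K p = relPos H K p') :
    ∃ g : G, g • p = p' := by
  obtain ⟨a, b⟩ := p
  obtain ⟨a', b'⟩ := p'
  induction a using QuotientGroup.induction_on with
  | H x =>
    induction b using QuotientGroup.induction_on with
    | H y =>
      induction a' using QuotientGroup.induction_on with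
      | H x' =>
        induction b' using QuotientGroup.induction_on with
        | H y' =>
          rw [relPos_mk, relPos_mk, DoubleCoset.eq] at h
          obtain ⟨u, hu, k, hk, e⟩ := h
          refine ⟨x' * u * x⁻¹, ?_⟩
          change (((x' * u * x⁻¹ * x : G) : G ⧸ H), ((x' * u * x⁻¹ * y : G) : G ⧸ K)) = _
          apply Prod.ext
          · simp only
            rw [QuotientGroup.eq]
            have : (x' * u * x⁻¹ * x)⁻¹ * x' = u⁻¹ := by group
            rw [this]
            exact H.inv_mem hu
          · simp only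
            rw [QuotientGroup.eq]
            have : (x' * u * x⁻¹ * y)⁻¹ * y' = (u * (x⁻¹ * y))⁻¹ * (x'⁻¹ * y') := by group
            rw [this, e]
            have : (u * (x⁻¹ * y))⁻¹ * (u * (x⁻¹ * y) * k) = k := by group
            rw [this]
            exact hk

theorem card_orbits_eq (H K : Subgroup G) :
    Nat.card (orbitRel.Quotient G ((G ⧸ H) × (G ⧸ K))) = Nat.card (DoubleCoset.Quotient (H : Set G) K) := by
  let Ψ : orbitRel.Quotient G ((G ⧸ H) × (G ⧸ K)) → DoubleCoset.Quotient (H : Set G) K :=
    Quotient.lift (relPos H K) (by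
      intro p p' hpp
      obtain ⟨g, rfl⟩ := hpp
      exact relPos_smul H K g p')
  apply Nat.card_congr (Equiv.ofBijective Ψ ⟨?_, ?_⟩)
  · intro a b hab
    induction a using Quotient.inductionOn' with
    | h p =>
      induction b using Quotient.inductionOn' with
      | h p' =>
        obtain ⟨g, hg⟩ := relPos_eq H K p' p (Eq.symm hab)
        exact Quotient.sound' ⟨g, hg⟩
  · intro c
    induction c using Quotient.inductionOn' with
    | h g =>
      refine ⟨Quotient.mk'' (((1 : G) : G ⧸ H), (g : G ⧸ K)), ?_⟩
      change relPos H K (((1 : G) : G ⧸ H), (g : G ⧸ K)) = _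
      rw [relPos_mk]
      simp

theorem inner_fixedPoint [Fintype G] (H K : Subgroup G) :
    (Nat.card G : ℂ)⁻¹ * ∑ g : G, fixedPointCharacter H g * fixedPointCharacter K g
      = (Nat.card (DoubleCoset.Quotient (H : Set G) K) : ℂ) := by
  have h1 : ∀ g : G, fixedPointCharacter H g * fixedPointCharacter K g
      = (Nat.card (fixedBy ((G ⧸ H) × (G ⧸ K)) g) : ℂ) := by
    intro g
    unfold fixedPointCharacter
    rw [← Nat.cast_mul, ← Nat.card_prod]
    congr 1
    apply Nat.card_congr
    exact
      { toFun := fun p => ⟨(p.1.1, p.2.1), by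
          rw [mem_fixedBy]
          exact Prod.ext p.1.2 p.2.2⟩
        invFun := fun p => (⟨p.1.1, congrArg Prod.fst p.2⟩, ⟨p.1.2, congrArg Prod.snd p.2⟩)
        left_inv := fun _ => rfl
        right_inv := fun _ => rfl }
  simp_rw [h1]
  rw [Cfsg.Agent.Lib.Helper3.sum_card_fixedBy, card_orbits_eq]
  have hc : (Nat.card G : ℂ) ≠ 0 := by exact_mod_cast Nat.card_pos.ne'
  field_simp

end Cfsg.Agent.Lib.Helper39.Stbg
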