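import Cfsg.Agent.Lib.Helper39.Stbg.Order

/-!
# The index of a standard parabolic subgroup
-/

set_option autoImplicit false
set_option linter.unusedSectionVars false

namespace Cfsg.Agent.Lib.Helper39.Stbg

open Cfsg Module
open scoped MatrixGroups

/-- the `q`-integers -/
def qInt (q k : ℕ) : ℕ := ∑ l ∈ Finset.range k, q ^ l

/-- the `q`-factorials -/
def qFac (q k : ℕ) : ℕ := ∏ j ∈ Finset.range k, qInt q (j + 1)

theorem qInt_spec (q k : ℕ) (hq : 1 ≤ q) : (q - 1) * qInt q k + 1 = q ^ k := by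
  obtain ⟨r, rfl⟩ : ∃ r, q = r + 1 := ⟨q - 1, by omega⟩
  simp only [Nat.add_sub_cancel]
  unfold qInt
  induction k with
  | zero => simp
  | succ k ih =>
    rw [Finset.sum_range_succ, pow_succ, ← ih]
    ring

theorem pow_sub_pow (q m j : ℕ) (hq : 1 ≤ q) (h : j ≤ m) :
    q ^ m - q ^ j = q ^ j * (q - 1) * qInt q (m - j) := by
  obtain ⟨k, rfl⟩ := Nat.exists_eq_add_of_le h
  rw [Nat.add_sub_cancel_left, pow_add, ← qInt_spec q k hq]
  have : q ^ j * ((q - 1) * qInt q k + 1) = q ^ j * (q - 1) * qInt q k + q ^ j := by ring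
  rw [this, Nat.add_sub_cancel]

theorem qInt_pos (q k : ℕ) (hq : 1 ≤ q) (hk : 1 ≤ k) : 0 < qInt q k := by
  unfold qInt
  apply Finset.sum_pos
  · intro i _
    exact Nat.pow_pos (by omega)
  · exact ⟨0, Finset.mem_range.2 (by omega)⟩

theorem qFac_pos (q k : ℕ) (hq : 1 ≤ q) : 0 < qFac q k := by
  unfold qFac
  apply Finset.prod_pos
  intro j _
  exact qInt_pos q _ hq (by omega)

variable {n : ℕ}

theorem compLabel_eq_iff (μ : Fin n → ℕ) (j l : Fin n) :
    compLabel μ j = l.val ↔ pS μ l - μ l ≤ j.val ∧ j.val < pS μ l := by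
  rw [← compLabel_le_iff]
  rcases Nat.eq_zero_or_pos l.val with h0 | hpos
  · rw [pS_zero μ l h0]
    omega
  · set l₀ : Fin n := ⟨l.val - 1, by have := l.2; omega⟩ with hl₀
    have h1 := compLabel_le_iff μ j l₀
    rw [pS_succ μ l₀ l (by simp [hl₀]; omega), Nat.add_sub_cancel]
    have h3 : l₀.val = l.val - 1 := rfl
    rw [h3] at h1
    omega

theorem prod_block {μ : Fin n → ℕ} (hμ : ∑ k, μ k = n) (q : ℕ) (l : Fin n) :
    ∏ j ∈ Finset.univ.filter (fun j : Fin n => compLabel μ j = l.val), qInt q (pS μ l - j.val)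
      = qFac q (μ l) := by
  unfold qFac
  have hle : pS μ l ≤ n := (pS_le μ l).trans (le_of_eq hμ)
  have hμl : μ l ≤ pS μ l := by
    unfold pS
    exact Finset.single_le_sum (f := μ) (fun _ _ => Nat.zero_le _) (by simp)
  refine Finset.prod_bij' (fun j _ => pS μ l - 1 - j.val)
    (fun t ht => ⟨pS μ l - 1 - t, by
      have := Finset.mem_range.1 ht
      omega⟩) ?_ ?_ ?_ ?_ ?_
  · intro j hj
    rw [Finset.mem_filter, compLabel_eq_iff] at hj
    rw [Finset.mem_range]
    omega
  · intro t ht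
    rw [Finset.mem_range] at ht
    rw [Finset.mem_filter, compLabel_eq_iff]
    refine ⟨Finset.mem_univ _, ?_, ?_⟩
    · simp only
      omega
    · simp only
      omega
  · intro j hj
    rw [Finset.mem_filter, compLabel_eq_iff] at hj
    apply Fin.ext
    simp only
    omega
  · intro t ht
    rw [Finset.mem_range] at ht
    simp only
    omega
  · intro j hj
    rw [Finset.mem_filter, compLabel_eq_iff] at hj
    congr 1
    omega

theorem stdDim_compLabel {μ : Fin n → ℕ} (hμ : ∑ k, μ k = n) (j : Fin n) :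
    stdDim (compLabel μ) j.val = pS μ ⟨compLabel μ j, compLabel_lt hμ j⟩ := by
  rw [stdDim_eq (compLabel_mono μ), ← card_compLabel_le hμ]

variable {F : Type*} [Field F] [Fintype F]

theorem parabolic_index {q : ℕ} (hq : Fintype.card F = q) (μ : Fin n → ℕ) (hμ : ∑ i, μ i = n) :
    Nat.card (GL (Fin n) F ⧸ parabolicGL n F μ) * ∏ i : Fin n, qFac q (μ i) = qFac q n := by
  have hq1 : 2 ≤ q := by rw [← hq]; exact Fintype.one_lt_card
  have h1 := Subgroup.card_eq_card_quotient_mul_card_subgroup (parabolicGL n F μ)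
  rw [Matrix.card_GL_field, parabolicGL_eq, card_blockSub (compLabel_mono μ), hq] at h1
  have hd : ∀ j : Fin n, j.val < stdDim (compLabel μ) j.val := by
    intro j
    rw [stdDim_compLabel hμ, ← compLabel_le_iff]
  have e1 : ∀ j : Fin n, q ^ n - q ^ j.val = q ^ j.val * (q - 1) * qInt q (n - j.val) :=
    fun j => pow_sub_pow q n j.val (by omega) (le_of_lt j.2)
  have e2 : ∀ j : Fin n, q ^ stdDim (compLabel μ) j.val - q ^ j.val
      = q ^ j.val * (q - 1) * qInt q (stdDim (compLabel μ) j.val - j.val) :=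
    fun j => pow_sub_pow q _ j.val (by omega) (le_of_lt (hd j))
  simp_rw [e1, e2] at h1
  rw [Finset.prod_mul_distrib (f := fun j : Fin n => q ^ j.val * (q - 1)),
    Finset.prod_mul_distrib (f := fun j : Fin n => q ^ j.val * (q - 1)), mul_left_comm] at h1
  have hc : 0 < ∏ j : Fin n, q ^ j.val * (q - 1) := by
    apply Finset.prod_pos
    intro j _
    exact Nat.mul_pos (Nat.pow_pos (by omega)) (by omega)
  have h2 := Nat.eq_of_mul_eq_mul_left hc h1
  have e3 : ∏ j : Fin n, qInt q (n - j.val) = qFac q n := by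
    unfold qFac
    rw [Fin.prod_univ_eq_prod_range (fun j => qInt q (n - j)) n, ← Finset.prod_range_reflect]
    apply Finset.prod_congr rfl
    intro j hj
    rw [Finset.mem_range] at hj
    congr 1
    omega
  have e4 : ∏ j : Fin n, qInt q (stdDim (compLabel μ) j.val - j.val) = ∏ i : Fin n, qFac q (μ i) := by
    rw [← Finset.prod_fiberwise_of_maps_to (s := Finset.univ) (t := Finset.univ)
      (g := fun j : Fin n => (⟨compLabel μ j, compLabel_lt hμ j⟩ : Fin n)) (fun _ _ => Finset.mem_univ _)]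
    apply Finset.prod_congr rfl
    intro l _
    rw [← prod_block hμ q l]
    have : Finset.univ.filter (fun j : Fin n => (⟨compLabel μ j, compLabel_lt hμ j⟩ : Fin n) = l)
        = Finset.univ.filter (fun j : Fin n => compLabel μ j = l.val) := by
      ext j
      simp [Fin.ext_iff]
    rw [this]
    apply Finset.prod_congr rfl
    intro j hj
    rw [Finset.mem_filter] at hj
    rw [stdDim_compLabel hμ]
    have h5 : (⟨compLabel μ j, compLabel_lt hμ j⟩ : Fin n) = l := Fin.ext hj.2
    rw [h5]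
  rw [e3, e4] at h2
  exact h2.symm

end Cfsg.Agent.Lib.Helper39.Stbg
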