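import Cfsg.Agent.Lib.Helper39.Stbg.Coeff
import Cfsg.Agent.Lib.Helper39.Stbg.Young
import Cfsg.Agent.Lib.Helper39.Stbg.Label

/-!
# Double cosets of Young subgroups and matrices with given margins
-/

set_option autoImplicit false
set_option linter.unusedSectionVars false

namespace Cfsg.Agent.Lib.Helper39.Stbg

open Cfsg

variable {n : ℕ}

theorem card_range_congr {α β γ : Type*} (f : α → β) (g : α → γ)
    (h : ∀ x y, f x = f y ↔ g x = g y) :
    Nat.card (Set.range f) = Nat.card (Set.range g) := by
  have e1 := Setoid.quotientKerEquivRange f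
  have e2 := Setoid.quotientKerEquivRange g
  have e3 : Setoid.ker f = Setoid.ker g := by
    ext x y
    exact h x y
  rw [← Nat.card_congr e1, ← Nat.card_congr e2, e3]

/-- the matrix of cell counts -/
noncomputable def cell (a b : Fin n → ℕ) (σ : Equiv.Perm (Fin n)) : Fin n → (Fin n →₀ ℕ) :=
  fun i => toF fun j => (Finset.univ.filter fun x => a (σ x) = i.val ∧ b x = j.val).card

theorem cell_apply (a b : Fin n → ℕ) (σ : Equiv.Perm (Fin n)) (i j : Fin n) :
    cell a b σ i j = (Finset.univ.filter fun x => a (σ x) = i.val ∧ b x = j.val).card := rfl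

theorem cell_eq_count (a b : Fin n → ℕ) (σ : Equiv.Perm (Fin n)) (i j : Fin n) :
    cell a b σ i j = (permType a b σ).count (i.val, j.val) := by
  rw [count_permType, Fintype.card_subtype, cell_apply]
  congr 1
  ext x
  simp

theorem cell_eq_iff (a b : Fin n → ℕ) (ha : ∀ x, a x < n) (hb : ∀ x, b x < n)
    (σ τ : Equiv.Perm (Fin n)) :
    permType a b σ = permType a b τ ↔ cell a b σ = cell a b τ := by
  constructor
  · intro h
    funext i
    ext j
    rw [cell_eq_count, cell_eq_count, h]
  · intro h
    refine Multiset.ext.2 fun c => ?_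
    by_cases hc : c.1 < n ∧ c.2 < n
    · have := DFunLike.congr_fun (congrFun h ⟨c.1, hc.1⟩) ⟨c.2, hc.2⟩
      rw [cell_eq_count, cell_eq_count] at this
      exact this
    · rw [count_permType, count_permType, Fintype.card_eq_zero_iff.2, Fintype.card_eq_zero_iff.2]
      · refine ⟨fun ⟨x, hx⟩ => hc ?_⟩
        rw [← hx]
        exact ⟨ha _, hb _⟩
      · refine ⟨fun ⟨x, hx⟩ => hc ?_⟩
        rw [← hx]
        exact ⟨ha _, hb _⟩

theorem card_sigma_filter (m : Fin n × Fin n → ℕ) (P : Fin n × Fin n → Prop) [DecidablePred P] :
    Fintype.card {z : Σ c, Fin (m c) // P z.1} = ∑ c, if P c then m c else 0 := by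
  rw [Fintype.card_subtype, Finset.card_filter, Fintype.sum_sigma]
  apply Finset.sum_congr rfl
  intro c _
  by_cases h : P c <;> simp [h]

theorem card_range_permType (a b : Fin n → ℕ) (α β : Fin n → ℕ)
    (ha : ∀ x, a x < n) (hb : ∀ x, b x < n)
    (hα : ∀ l : Fin n, (Finset.univ.filter fun i : Fin n => a i = l.val).card = α l)
    (hβ : ∀ l : Fin n, (Finset.univ.filter fun i : Fin n => b i = l.val).card = β l) :
    Nat.card (Set.range (permType a b)) = Nc α β := by
  rw [card_range_congr (permType a b) (cell a b) (cell_eq_iff a b ha hb)]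
  have key : Set.range (cell a b) = ↑((Fintype.piFinset fun i : Fin n =>
      Finset.finsuppAntidiag (Finset.univ : Finset (Fin n)) (α i)).filter
      fun p => ∑ i, p i = toF β) := by
    ext p
    simp only [Set.mem_range, Finset.coe_filter, Fintype.mem_piFinset, Finset.mem_finsuppAntidiag,
      Finset.subset_univ, and_true, Set.mem_ofPred_eq]
    constructor
    · rintro ⟨σ, rfl⟩
      constructor
      · intro i
        change ∑ j, cell a b σ i j = α i
        simp only [cell_apply]
        rw [← hα i, ← Finset.card_equiv σ (s := Finset.univ.filter fun x => a (σ x) = i.val)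
          (t := Finset.univ.filter fun x => a x = i.val) (by intro x; simp)]
        rw [Finset.card_eq_sum_card_fiberwise (s := Finset.univ.filter fun x => a (σ x) = i.val)
          (t := Finset.univ) (f := fun x => (⟨b x, hb x⟩ : Fin n)) (fun _ _ => Finset.mem_coe.2 (Finset.mem_univ _))]
        apply Finset.sum_congr rfl
        intro j _
        congr 1
        ext x
        simp [Fin.ext_iff]
      · ext j
        rw [Finsupp.finsetSum_apply, toF_apply, ← hβ j]
        simp only [cell_apply]
        rw [Finset.card_eq_sum_card_fiberwise (s := Finset.univ.filter fun x => b x = j.val)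
          (t := Finset.univ) (f := fun x => (⟨a (σ x), ha _⟩ : Fin n)) (fun _ _ => Finset.mem_coe.2 (Finset.mem_univ _))]
        apply Finset.sum_congr rfl
        intro i _
        congr 1
        ext x
        simp [Fin.ext_iff, and_comm]
    · rintro ⟨h1, h2⟩
      let m : Fin n × Fin n → ℕ := fun c => p c.1 c.2
      obtain ⟨e1, he1⟩ := exists_equiv_of_card_fiber (fun z : Σ c, Fin (m c) => z.1.1)
        (fun x : Fin n => (⟨a x, ha x⟩ : Fin n)) (by
          intro c
          rw [card_sigma_filter m (fun d => d.1 = c), Fintype.sum_prod_type,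
            Fintype.card_subtype]
          simp only [Fin.ext_iff]
          rw [hα c, ← h1 c, Finset.sum_eq_single c]
          · simp [m]
          · intro i _ hi
            simp [Fin.ext_iff.not.1 hi]
          · intro hc
            exact absurd (Finset.mem_univ _) hc)
      obtain ⟨e2, he2⟩ := exists_equiv_of_card_fiber (fun z : Σ c, Fin (m c) => z.1.2)
        (fun x : Fin n => (⟨b x, hb x⟩ : Fin n)) (by
          intro c
          rw [card_sigma_filter m (fun d => d.2 = c), Fintype.sum_prod_type,
            Fintype.card_subtype]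
          simp only [Fin.ext_iff]
          have h3 := DFunLike.congr_fun h2 c
          rw [Finsupp.finsetSum_apply, toF_apply] at h3
          rw [hβ c, ← h3]
          apply Finset.sum_congr rfl
          intro i _
          rw [Finset.sum_eq_single c]
          · simp [m]
          · intro j _ hj
            simp [Fin.ext_iff.not.1 hj]
          · intro hc
            exact absurd (Finset.mem_univ _) hc)
      refine ⟨e2.symm.trans e1, ?_⟩
      funext i
      ext j
      rw [cell_apply]
      have h4 := card_sigma_filter m (fun d => d = (i, j))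
      rw [Finset.sum_ite_eq' Finset.univ (i, j) m, if_pos (Finset.mem_univ _),
        Fintype.card_subtype] at h4
      change _ = m (i, j)
      rw [← h4]
      apply Finset.card_equiv e2.symm
      intro x
      rw [Finset.mem_filter, Finset.mem_filter, Equiv.trans_apply]
      simp only [Finset.mem_univ, true_and]
      have h5 := he1 (e2.symm x)
      have h6 := he2 (e2.symm x)
      rw [Equiv.apply_symm_apply] at h6
      rw [Fin.ext_iff] at h5 h6
      simp only at h5 h6
      rw [h5, h6, Prod.ext_iff, Fin.ext_iff, Fin.ext_iff]
  rw [key, Nat.card_coe_set_eq, Set.ncard_coe_finset]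
  rfl

theorem card_dc_young {α β : Fin n → ℕ} (hα : ∑ i, α i = n) (hβ : ∑ i, β i = n) :
    Nat.card (DoubleCoset.Quotient (labSub (compLabel α) : Set (Equiv.Perm (Fin n)))
      (labSub (compLabel β))) = Nc α β := by
  rw [card_dc_labSub]
  exact card_range_permType _ _ α β (compLabel_lt hα) (compLabel_lt hβ) (card_compLabel_eq hα)
    (card_compLabel_eq hβ)

end Cfsg.Agent.Lib.Helper39.Stbg
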